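import Mathlib
import Cfsg.Agent.Lib.Ward.Weights

/-!
# Commutators act trivially: the abelian step and the nilpotent step of Ward's theorem
-/

set_option autoImplicit false
set_option linter.unusedSectionVars false
set_option linter.style.haveILetI false
set_option linter.dupNamespace false
set_option linter.unusedVariables false

namespace Cfsg.Agent.Lib.Ward

universe u

variable {X : Type u} [Group X] {k : Type*} [Field k] {W : Type*} [AddCommGroup W] [Module k W]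

open Classical in
/-- The restriction of a weight to `K`, extended by zero. -/
noncomputable def wtRes (K : Subgroup X) (lam : X → k) : X → k := fun x => if x ∈ K then lam x else 0

theorem wtRes_of_mem {K : Subgroup X} {lam : X → k} {x : X} (hx : x ∈ K) : wtRes K lam x = lam x := by
  simp [wtRes, hx]

theorem wtRes_of_not_mem {K : Subgroup X} {lam : X → k} {x : X} (hx : x ∉ K) : wtRes K lam x = 0 := by
  simp [wtRes, hx]

theorem IsWt.res {ρ : X →* Module.End k W} {K : Subgroup X} {lam : X → k} {w : W}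
    (h : IsWt ρ K lam w) : IsWt ρ K (wtRes K lam) w :=
  h.congr fun _ hy => (wtRes_of_mem hy).symm

theorem mem_wtStab_res {K : Subgroup X} {lam : X → k} {g : X} :
    g ∈ wtStab K (wtRes K lam) ↔ g ∈ wtStab K lam := by
  rw [mem_wtStab, mem_wtStab]
  refine and_congr_right fun hg => forall₂_congr fun y hy => ?_
  rw [wtRes_of_mem hy, wtRes_of_mem (conj_inv_mem_of_norm le_rfl hg hy)]

/-- Support in `K`. -/
def Supp (K : Subgroup X) (f : X → k) : Prop := ∀ x, x ∉ K → f x = 0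

theorem supp_res (K : Subgroup X) (lam : X → k) : Supp K (wtRes K lam) :=
  fun _ hx => wtRes_of_not_mem hx

theorem Supp.conj {K : Subgroup X} {f : X → k} (h : Supp K f) {g : X}
    (hg : g ∈ Subgroup.normalizer (K : Set X)) : Supp K (wtConj g f) := by
  intro x hx
  refine h _ fun h2 => hx ?_
  have := conj_mem_of_norm le_rfl hg h2
  have e : g * (g⁻¹ * x * g) * g⁻¹ = x := by group
  rwa [e] at this

theorem Supp.ext {K : Subgroup X} {f f' : X → k} (h : Supp K f) (h' : Supp K f')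
    (he : ∀ y ∈ K, f y = f' y) : f = f' := by
  funext x
  by_cases hx : x ∈ K
  · exact he x hx
  · rw [h x hx, h' x hx]

/-- The weight space. -/
def wtSpace (ρ : X →* Module.End k W) (K : Subgroup X) (lam : X → k) : Submodule k W where
  carrier := {w | IsWt ρ K lam w}
  add_mem' := fun h h' => h.add h'
  zero_mem' := IsWt.zero
  smul_mem' := fun c _ h => h.smul c

theorem mem_wtSpace {ρ : X →* Module.End k W} {K : Subgroup X} {lam : X → k} {w : W} :
    w ∈ wtSpace ρ K lam ↔ IsWt ρ K lam w := Iff.rfl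

/-- The subgroup of `K` on which two multiplicative functions agree. -/
def wtEqSub (K : Subgroup X) (lam mu : X → k)
    (h1 : ∀ y ∈ K, ∀ z ∈ K, lam (y * z) = lam y * lam z)
    (h2 : ∀ y ∈ K, ∀ z ∈ K, mu (y * z) = mu y * mu z) (h3 : lam 1 = 1) (h4 : mu 1 = 1) :
    Subgroup X where
  carrier := {y | y ∈ K ∧ lam y = mu y}
  mul_mem' := by
    rintro y z ⟨hy, hy2⟩ ⟨hz, hz2⟩
    exact ⟨K.mul_mem hy hz, by rw [h1 y hy z hz, h2 y hy z hz, hy2, hz2]⟩
  one_mem' := ⟨K.one_mem, by rw [h3, h4]⟩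
  inv_mem' := by
    rintro y ⟨hy, hy2⟩
    refine ⟨K.inv_mem hy, ?_⟩
    have e1 := h1 y hy _ (K.inv_mem hy)
    have e2 := h2 y hy _ (K.inv_mem hy)
    rw [mul_inv_cancel, h3] at e1
    rw [mul_inv_cancel, h4] at e2
    rw [hy2] at e1
    have hne : mu y ≠ 0 := by
      intro h
      rw [h, zero_mul] at e1
      exact one_ne_zero e1
    exact mul_left_cancel₀ hne (e1.symm.trans e2)

/-- The group-element computation. -/
theorem calc_core {a b r : X} {lam : X → k} {m n : ℤ} (hra : r * a = a * r)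
    (h1 : wtConj b lam = wtConj (a ^ m) lam)
    (h2 : wtConj b (wtConj r lam) = wtConj (a ^ n) (wtConj r lam)) (hba : b * a = a * b) :
    wtConj (r⁻¹ * (b * r * b⁻¹)) lam = wtConj (a ^ (n - m)) lam := by
  have hra' : Commute r a := hra
  have hba' : Commute b a := hba
  have hr' : Commute (b * r * b⁻¹) (a ^ m) := by
    refine Commute.zpow_right ?_ m
    exact ((hba'.mul_left hra').mul_left hba'.inv_left)
  have e1 : wtConj (a ^ m * (b * r * b⁻¹)) lam = wtConj (a ^ n * r) lam := by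
    calc wtConj (a ^ m * (b * r * b⁻¹)) lam = wtConj ((b * r * b⁻¹) * a ^ m) lam := by rw [hr'.eq]
      _ = wtConj (b * r * b⁻¹) (wtConj (a ^ m) lam) := wtConj_mul _ _ _
      _ = wtConj (b * r * b⁻¹) (wtConj b lam) := by rw [h1]
      _ = wtConj (b * r * b⁻¹ * b) lam := (wtConj_mul _ _ _).symm
      _ = wtConj (b * r) lam := by group
      _ = wtConj b (wtConj r lam) := wtConj_mul _ _ _
      _ = wtConj (a ^ n) (wtConj r lam) := h2
      _ = wtConj (a ^ n * r) lam := (wtConj_mul _ _ _).symm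
  have e2 := congrArg (wtConj (r⁻¹ * (a ^ m)⁻¹)) e1
  rw [← wtConj_mul, ← wtConj_mul] at e2
  have e3 : r⁻¹ * (a ^ m)⁻¹ * (a ^ m * (b * r * b⁻¹)) = r⁻¹ * (b * r * b⁻¹) := by group
  have hrz : Commute r (a ^ (n - m)) := hra'.zpow_right _
  have e4 : r⁻¹ * (a ^ m)⁻¹ * (a ^ n * r) = a ^ (n - m) := by
    have : (a ^ m)⁻¹ * a ^ n = a ^ (n - m) := by rw [← zpow_neg, ← zpow_add]; congr 1; ring
    calc r⁻¹ * (a ^ m)⁻¹ * (a ^ n * r) = r⁻¹ * ((a ^ m)⁻¹ * a ^ n) * r := by group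
      _ = r⁻¹ * (a ^ (n - m) * r) := by rw [this, mul_assoc]
      _ = r⁻¹ * (r * a ^ (n - m)) := by rw [hrz.eq]
      _ = a ^ (n - m) := by group
  rwa [e3, e4] at e2

/-- Iteration. -/
theorem wtConj_pow_of_eq {a d : X} {lam : X → k} {M : ℤ} (hda : Commute d a)
    (h : wtConj d lam = wtConj (a ^ M) lam) (j : ℕ) :
    wtConj (d ^ j) lam = wtConj (a ^ (M * j)) lam := by
  induction j with
  | zero => simp [wtConj_one]
  | succ j ih =>
    have hc : Commute (d ^ j) (a ^ M) := (hda.pow_left j).zpow_right M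
    calc wtConj (d ^ (j + 1)) lam = wtConj (d ^ j) (wtConj d lam) := by rw [pow_succ, wtConj_mul]
      _ = wtConj (d ^ j) (wtConj (a ^ M) lam) := by rw [h]
      _ = wtConj (d ^ j * a ^ M) lam := (wtConj_mul _ _ _).symm
      _ = wtConj (a ^ M * d ^ j) lam := by rw [hc.eq]
      _ = wtConj (a ^ M) (wtConj (d ^ j) lam) := wtConj_mul _ _ _
      _ = wtConj (a ^ M) (wtConj (a ^ (M * j)) lam) := by rw [ih]
      _ = wtConj (a ^ (M * (j + 1 : ℕ))) lam := by
          rw [← wtConj_mul, ← zpow_add]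
          congr 2
          push_cast
          ring

section

variable [Finite X] {ρ : X →* Module.End k W} {A G : Subgroup X} {p : ℕ}
variable [IsAlgClosed k] [FiniteDimensional k W]

namespace Ward

/-- Lemma 3.1: if the weight is trivial or stabilised by `a`, then `C_R(a)` stabilises it. -/
theorem stab_of_commuting (hW : Ward A G p) (hA0 : ∀ w : W, (∀ a ∈ A, ρ a w = w) → w = 0)
    {Y R : Subgroup X} (hYG : Y ≤ G) (hYA : A ≤ Subgroup.normalizer (Y : Set X))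
    (hYk : (Nat.card Y : k) ≠ 0) (hRG : R ≤ G) (hRY : R ≤ Subgroup.normalizer (Y : Set X))
    (hcop : (Nat.card Y).Coprime (Nat.card R)) {a r : X} (ha : a ∈ A) (ha1 : a ≠ 1) (hr : r ∈ R)
    (hra : r * a = a * r) {lam : X → k} {w : W} (hw0 : w ≠ 0) (hw : IsWt ρ Y lam w)
    (hcase : (∀ y ∈ Y, lam y = 1) ∨ a ∈ wtStab Y lam) : r ∈ wtStab Y lam := by
  by_cases htriv : ∀ y ∈ Y, lam y = 1
  · exact ⟨hRY hr, fun y hy => by
      rw [htriv y hy, htriv _ (conj_inv_mem_of_norm hRY hr hy)]⟩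
  have haS : a ∈ wtStab Y lam := hcase.resolve_left htriv
  push Not at htriv
  obtain ⟨y₀, hy₀, hy₀1⟩ := htriv
  have hrY : ∀ y ∈ Y, r⁻¹ * y * r ∈ Y := fun y hy => conj_inv_mem_of_norm hRY hr hy
  set mu : X → k := wtConj r lam with hmu
  have hmuw : IsWt ρ Y mu (ρ r w) := hw.conj hrY
  have hrw0 : ρ r w ≠ 0 := fun h => hw0 ((rho_eq_zero_iff ρ r w).mp h)
  have hraC : Commute r a := hra
  have haSmu : a ∈ wtStab Y mu := by
    refine ⟨hYA ha, fun y hy => ?_⟩
    simp only [hmu, wtConj]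
    have e : r⁻¹ * (a⁻¹ * y * a) * r = a⁻¹ * (r⁻¹ * y * r) * a := by
      have h1 : a⁻¹ * r⁻¹ = r⁻¹ * a⁻¹ := by
        have := (hraC.inv_inv).eq
        exact this.symm
      have h2 : r * a = a * r := hra
      calc r⁻¹ * (a⁻¹ * y * a) * r = (r⁻¹ * a⁻¹) * y * (a * r) := by group
        _ = (a⁻¹ * r⁻¹) * y * (r * a) := by rw [h1, h2]
        _ = a⁻¹ * (r⁻¹ * y * r) * a := by group
    rw [e]
    exact haS.2 _ (hrY y hy)
  have hneA : ¬ A ≤ wtStab Y lam := hW.not_le_stab hYG hYA hw0 hw ⟨y₀, hy₀, hy₀1⟩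
  have hneA' : ¬ A ≤ wtStab Y mu := by
    refine hW.not_le_stab hYG hYA hrw0 hmuw ⟨r * y₀ * r⁻¹, conj_mem_of_norm hRY hr hy₀, ?_⟩
    simp only [hmu, wtConj]
    have e : r⁻¹ * (r * y₀ * r⁻¹) * r = y₀ := by group
    rwa [e]
  let Y₀ : Subgroup X := wtEqSub Y mu lam
    (fun y hy z hz => hmuw.map_mul hrw0 hy hz) (fun y hy z hz => hw.map_mul hw0 hy hz)
    (hmuw.map_one hrw0) (hw.map_one hw0)
  have hle : Y ≤ Y₀ := by
    refine hW.le_of_centralizer hYA (hW.coprime hYG) ?_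
    intro c hc hc1 y hyy
    have hy : y ∈ Y := hyy.1
    have hyc : y ∈ Subgroup.centralizer ({c} : Set X) := hyy.2
    refine ⟨hy, ?_⟩
    by_cases hcz : c ∈ Subgroup.zpowers a
    · have hac : a ∈ Subgroup.zpowers c := hW.zpowers_symm ha ha1 hc hc1 hcz
      have hya : y ∈ Subgroup.centralizer ({a} : Set X) := by
        rw [Subgroup.mem_centralizer_singleton_iff]
        rw [Subgroup.mem_centralizer_singleton_iff] at hyc
        obtain ⟨i, hi⟩ := Subgroup.mem_zpowers_iff.mp hac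
        rw [← hi]
        exact (Commute.zpow_right (show Commute y c from hyc) i).eq
      have hcom : r * y = y * r := by
        refine hW.commute_of_coprime ha ha1 ⟨hRG hr, ?_⟩ ⟨hYG hy, hya⟩ ?_
        · show r ∈ Subgroup.centralizer ({a} : Set X)
          rw [Subgroup.mem_centralizer_singleton_iff]
          exact hra
        · exact Nat.Coprime.coprime_dvd_left (Subgroup.orderOf_dvd_natCard R hr)
            (Nat.Coprime.coprime_dvd_right (Subgroup.orderOf_dvd_natCard Y hy) hcop.symm)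
      simp only [hmu, wtConj]
      have e : r⁻¹ * y * r = y := by
        rw [mul_assoc, ← hcom, ← mul_assoc, inv_mul_cancel, one_mul]
      rw [e]
    · have hcS : c ∉ wtStab Y lam := fun h => hneA (hW.le_of_mem_of_mem ha ha1 hc hcz haS h)
      have hcS' : c ∉ wtStab Y mu := fun h => hneA' (hW.le_of_mem_of_mem ha ha1 hc hcz haSmu h)
      rw [hW.wt_eq_one_of_not_stab hA0 hYG hYA hYk hc hcS hw0 hw ⟨hy, hyc⟩,
        hW.wt_eq_one_of_not_stab hA0 hYG hYA hYk hc hcS' hrw0 hmuw ⟨hy, hyc⟩]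
  exact ⟨hRY hr, fun y hy => (hle hy).2⟩

/-- Lemma 3.2: if `a` does not stabilise the weight, then `A` acts on it through `⟨a⟩`. -/
theorem exists_zpow_of_not_stab (hW : Ward A G p) (hA0 : ∀ w : W, (∀ a ∈ A, ρ a w = w) → w = 0)
    {Y : Subgroup X} (hYA : A ≤ Subgroup.normalizer (Y : Set X)) {lam : X → k} {w : W} (hw0 : w ≠ 0)
    (hw : IsWt ρ Y lam w) {a b : X} (ha : a ∈ A) (haS : a ∉ wtStab Y lam) (hb : b ∈ A) :
    ∃ m : ℤ, ∀ y ∈ Y, lam (b⁻¹ * y * b) = lam ((a ^ m)⁻¹ * y * a ^ m) := by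
  obtain ⟨c, hc, hc1, hcS⟩ := hW.exists_stab hA0 hYA hw0 hw
  have hac : a ∉ Subgroup.zpowers c := by
    intro h
    exact haS ((Subgroup.zpowers_le.mpr hcS) h)
  obtain ⟨i, j, rfl⟩ := hW.decomp hc hc1 ha hac hb
  refine ⟨j, fun y hy => ?_⟩
  have hcomm : Commute c a := hW.comm c hc a ha
  have hczS : c ^ i ∈ wtStab Y lam := (wtStab Y lam).zpow_mem hcS i
  have hzA : a ^ j ∈ A := A.zpow_mem ha j
  have hy' : (a ^ j)⁻¹ * y * a ^ j ∈ Y := conj_inv_mem_of_norm hYA hzA hy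
  have e : (c ^ i * a ^ j)⁻¹ * y * (c ^ i * a ^ j) = (c ^ i)⁻¹ * ((a ^ j)⁻¹ * y * a ^ j) * c ^ i := by
    have h1 : c ^ i * a ^ j = a ^ j * c ^ i := (hcomm.zpow_zpow i j).eq
    rw [h1]
    group
  rw [e]
  exact hczS.2 _ hy'

/-- Claim 3: the element `r⁻¹ · ᵇr` stabilises all the weights. -/
theorem stab_of_bracket (hW : Ward A G p) (hA0 : ∀ w : W, (∀ a ∈ A, ρ a w = w) → w = 0)
    {Y R : Subgroup X} (hYG : Y ≤ G) (hYA : A ≤ Subgroup.normalizer (Y : Set X))
    (hYk : (Nat.card Y : k) ≠ 0) (hRG : R ≤ G) (hRA : A ≤ Subgroup.normalizer (R : Set X))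
    (hRY : R ≤ Subgroup.normalizer (Y : Set X))
    (hcop : (Nat.card Y).Coprime (Nat.card R)) {a b r : X} (ha : a ∈ A) (ha1 : a ≠ 1) (hb : b ∈ A)
    (hr : r ∈ R) (hra : r * a = a * r) {lam : X → k} {w : W} (hw0 : w ≠ 0) (hw : IsWt ρ Y lam w) :
    r⁻¹ * (b * r * b⁻¹) ∈ wtStab Y lam := by
  have hr' : b * r * b⁻¹ ∈ R := conj_mem_of_norm hRA hb hr
  have hba : b * a = a * b := hW.comm b hb a ha
  have hraC : Commute r a := hra
  have hbaC : Commute b a := hba
  have hr'a : (b * r * b⁻¹) * a = a * (b * r * b⁻¹) :=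
    ((hbaC.mul_left hraC).mul_left hbaC.inv_left).eq
  by_cases hcase : (∀ y ∈ Y, lam y = 1) ∨ a ∈ wtStab Y lam
  · exact mul_mem (inv_mem (hW.stab_of_commuting hA0 hYG hYA hYk hRG hRY hcop ha ha1 hr hra hw0 hw hcase))
      (hW.stab_of_commuting hA0 hYG hYA hYk hRG hRY hcop ha ha1 hr' hr'a hw0 hw hcase)
  · push Not at hcase
    obtain ⟨⟨y₀, hy₀, hy₀1⟩, haS⟩ := hcase
    rw [← mem_wtStab_res]
    set lam' := wtRes Y lam with hlam'
    have hsupp : Supp Y lam' := supp_res Y lam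
    have hw' : IsWt ρ Y lam' w := hw.res
    have haS' : a ∉ wtStab Y lam' := fun h => haS (mem_wtStab_res.mp h)
    have hrN := hRY hr
    have hbN := hYA hb
    have hrY : ∀ y ∈ Y, r⁻¹ * y * r ∈ Y := fun y hy => conj_inv_mem_of_norm hRY hr hy
    set mu : X → k := wtConj r lam' with hmu
    have hmuw : IsWt ρ Y mu (ρ r w) := hw'.conj hrY
    have hmusupp : Supp Y mu := hsupp.conj hrN
    have hrw0 : ρ r w ≠ 0 := fun h => hw0 ((rho_eq_zero_iff ρ r w).mp h)
    have haSmu : a ∉ wtStab Y mu := by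
      intro h
      apply haS'
      refine ⟨hYA ha, fun y hy => ?_⟩
      have h1 := h.2 _ (conj_mem_of_norm hRY hr hy)
      simp only [hmu, wtConj] at h1
      have e1 : r⁻¹ * (a⁻¹ * (r * y * r⁻¹) * a) * r = a⁻¹ * y * a := by
        have h1 : a⁻¹ * r = r * a⁻¹ := (hraC.inv_right).eq.symm
        have h2 : r⁻¹ * a = a * r⁻¹ := (hraC.inv_left).eq
        calc r⁻¹ * (a⁻¹ * (r * y * r⁻¹) * a) * r = r⁻¹ * (a⁻¹ * r) * y * (r⁻¹ * a) * r := by group
          _ = r⁻¹ * (r * a⁻¹) * y * (a * r⁻¹) * r := by rw [h1, h2]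
          _ = a⁻¹ * y * a := by group
      have e2 : r⁻¹ * (r * y * r⁻¹) * r = y := by group
      rwa [e1, e2] at h1
    obtain ⟨m, hm⟩ := hW.exists_zpow_of_not_stab hA0 hYA hw0 hw' ha haS' hb
    obtain ⟨n, hn⟩ := hW.exists_zpow_of_not_stab hA0 hYA hrw0 hmuw ha haSmu hb
    have h1 : wtConj b lam' = wtConj (a ^ m) lam' :=
      (hsupp.conj hbN).ext (hsupp.conj (hYA (A.zpow_mem ha m))) hm
    have h2 : wtConj b mu = wtConj (a ^ n) mu :=
      (hmusupp.conj hbN).ext (hmusupp.conj (hYA (A.zpow_mem ha n))) hn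
    have h3 := calc_core hra h1 h2 hba
    set d := r⁻¹ * (b * r * b⁻¹) with hd
    have hdR : d ∈ R := R.mul_mem (R.inv_mem hr) hr'
    have hda : Commute d a := hraC.inv_left.mul_left hr'a
    have h4 := wtConj_pow_of_eq hda h3 p
    have h5 : a ^ ((n - m) * (p : ℤ)) = 1 := by
      rw [mul_comm, zpow_mul, zpow_natCast, hW.pow a ha, one_zpow]
    rw [h5, wtConj_one] at h4
    have hdN : d ∈ Subgroup.normalizer (Y : Set X) := hRY hdR
    have hstab : d ^ p ∈ wtStab Y lam' := by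
      refine ⟨pow_mem hdN p, fun y _ => ?_⟩
      have := congrFun h4 y
      simpa [wtConj] using this
    have hcop2 : (p).Coprime (orderOf d) := (hW.orderOf_coprime (hRG hdR)).symm
    exact mem_of_pow_mem (pow_orderOf_eq_one d) hstab hcop2

/-- **The abelian step.** If `Y` acts on `U` by commuting operators, then `[Y, R]` acts trivially
on `U`. -/
theorem abelian_step (hW : Ward A G p) (hA0 : ∀ w : W, (∀ a ∈ A, ρ a w = w) → w = 0)
    {Y R : Subgroup X} (hYG : Y ≤ G) (hRG : R ≤ G) (hYA : A ≤ Subgroup.normalizer (Y : Set X))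
    (hRA : A ≤ Subgroup.normalizer (R : Set X)) (hRY : R ≤ Subgroup.normalizer (Y : Set X))
    (hcop : (Nat.card Y).Coprime (Nat.card R)) (hYk : (Nat.card Y : k) ≠ 0) {U : Submodule k W}
    (hUY : ∀ y ∈ Y, ∀ w ∈ U, ρ y w ∈ U) (hUA : ∀ a ∈ A, ∀ w ∈ U, ρ a w ∈ U)
    (hUR : ∀ r ∈ R, ∀ w ∈ U, ρ r w ∈ U)
    (hcomm : ∀ y ∈ Y, ∀ z ∈ Y, ∀ w ∈ U, ρ y (ρ z w) = ρ z (ρ y w)) :
    ∀ r ∈ R, ∀ y ∈ Y, ∀ w ∈ U, ρ (r⁻¹ * y * r) w = ρ y w := by
  classical
  let D : Subgroup X :=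
    { carrier := {r | r ∈ R ∧ ∀ y ∈ Y, ∀ w ∈ U, ρ (r⁻¹ * y * r) w = ρ y w}
      mul_mem' := by
        rintro r₁ r₂ ⟨h1, h1'⟩ ⟨h2, h2'⟩
        refine ⟨R.mul_mem h1 h2, fun y hy w hw => ?_⟩
        have e : (r₁ * r₂)⁻¹ * y * (r₁ * r₂) = r₂⁻¹ * (r₁⁻¹ * y * r₁) * r₂ := by group
        rw [e, h2' _ (conj_inv_mem_of_norm hRY h1 hy) w hw, h1' y hy w hw]
      one_mem' := ⟨R.one_mem, fun y _ w _ => by simp⟩
      inv_mem' := by
        rintro r ⟨h1, h1'⟩
        refine ⟨R.inv_mem h1, fun y hy w hw => ?_⟩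
        have hy' := conj_mem_of_norm hRY h1 hy
        have := h1' _ hy' w hw
        have e : r⁻¹ * (r * y * r⁻¹) * r = y := by group
        rw [e] at this
        rw [inv_inv]
        exact this.symm }
  have hmemD : ∀ r, r ∈ D ↔ r ∈ R ∧ ∀ y ∈ Y, ∀ w ∈ U, ρ (r⁻¹ * y * r) w = ρ y w := fun r => Iff.rfl
  have hDconj : ∀ g ∈ A, ∀ r ∈ D, g * r * g⁻¹ ∈ D := by
    rintro g hg r ⟨h1, h1'⟩
    refine ⟨conj_mem_of_norm hRA hg h1, fun y hy w hw => ?_⟩
    have hy' := conj_inv_mem_of_norm hYA hg hy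
    have e : (g * r * g⁻¹)⁻¹ * y * (g * r * g⁻¹) = g * (r⁻¹ * (g⁻¹ * y * g) * r) * g⁻¹ := by group
    rw [e, rho_conj_apply, h1' _ hy' _ (hUA _ (A.inv_mem hg) w hw), ← rho_conj_apply]
    congr 2
    group
  have hDA : A ≤ Subgroup.normalizer (D : Set X) := by
    intro g hg
    refine mem_norm_of_conj (hDconj g hg) ?_
    intro r hr
    have := hDconj g⁻¹ (A.inv_mem hg) r hr
    simpa using this
  have hRD : R ≤ D := by
    refine hW.le_of_centralizer hRA (hW.coprime hRG) ?_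
    intro a ha ha1 r hrr
    have hr : r ∈ R := hrr.1
    have hrc : r ∈ Subgroup.centralizer ({a} : Set X) := hrr.2
    have hra : r * a = a * r := by
      rw [Subgroup.mem_centralizer_singleton_iff] at hrc
      exact hrc
    obtain ⟨b, hb, hba⟩ := hW.exists_not_mem ha
    set R₁ : Subgroup X := R ⊓ Subgroup.centralizer ({a} : Set X) with hR₁
    have hR₁A : A ≤ Subgroup.normalizer (R₁ : Set X) := norm_inf hRA (hW.centralizer_norm ha)
    have hmemN : r ∈ R₁ ⊓ D := by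
      refine hW.lift₂ (inf_le_left.trans hRG) hR₁A inf_le_left (norm_inf hR₁A hDA) ⟨hr, hrc⟩ ha ha1 hb hba
        ?_ ?_
      · have e : r⁻¹ * (a * r * a⁻¹) = 1 := by
          rw [← hra]
          group
        rw [e]
        exact one_mem _
      · have hr₁ : r ∈ R₁ := ⟨hr, hrc⟩
        have hbr : b * r * b⁻¹ ∈ R₁ := conj_mem_of_norm hR₁A hb hr₁
        have hd₁ : r⁻¹ * (b * r * b⁻¹) ∈ R₁ := R₁.mul_mem (R₁.inv_mem hr₁) hbr
        refine ⟨hd₁, hd₁.1, fun y hy => ?_⟩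
        set d := r⁻¹ * (b * r * b⁻¹) with hd
        have hdR : d ∈ R := hd₁.1
        have hle : U ≤ LinearMap.ker (ρ (d⁻¹ * y * d) - ρ y) := by
          refine le_of_forall_wt hYk hUY hcomm ?_
          intro w hwU lam hlam
          rw [LinearMap.mem_ker, LinearMap.sub_apply, sub_eq_zero]
          by_cases hw0 : w = 0
          · rw [hw0, map_zero, map_zero]
          · have hS := hW.stab_of_bracket hA0 hYG hYA hYk hRG hRA hRY hcop ha ha1 hb hr hra hw0 hlam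
            rw [hlam _ (conj_inv_mem_of_norm hRY hdR hy), hlam y hy, hS.2 y hy]
        intro w hw
        have := hle hw
        rwa [LinearMap.mem_ker, LinearMap.sub_apply, sub_eq_zero] at this
    exact hmemN.2
  intro r hr
  exact (hRD hr).2

/-- The subgroup of `Q` on which `g` acts trivially modulo the kernel on `U'`. -/
def tSub (ρ : X →* Module.End k W) (Q : Subgroup X) (U' : Submodule k W) {g : X}
    (hgU : ∀ v ∈ U', ρ g v ∈ U') (hQU : ∀ q ∈ Q, ∀ v ∈ U', ρ q v ∈ U')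
    (hgQ : g ∈ Subgroup.normalizer (Q : Set X)) : Subgroup X where
  carrier := {q | q ∈ Q ∧ ∀ v ∈ U', ρ (g⁻¹ * q * g) v = ρ q v}
  mul_mem' := by
    rintro q₁ q₂ ⟨h1, h1'⟩ ⟨h2, h2'⟩
    refine ⟨Q.mul_mem h1 h2, fun v hv => ?_⟩
    have e : g⁻¹ * (q₁ * q₂) * g = (g⁻¹ * q₁ * g) * (g⁻¹ * q₂ * g) := by group
    rw [e, rho_mul_apply, h2' v hv, h1' _ (hQU q₂ h2 v hv), rho_mul_apply]
  one_mem' := ⟨Q.one_mem, fun v _ => by simp⟩
  inv_mem' := by
    rintro q ⟨h1, h1'⟩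
    refine ⟨Q.inv_mem h1, fun v hv => ?_⟩
    have hu := hQU _ (Q.inv_mem h1) v hv
    have h2 := h1' _ hu
    rw [rho_apply_inv] at h2
    have e : g⁻¹ * q⁻¹ * g = (g⁻¹ * q * g)⁻¹ := by group
    rw [e]
    conv_lhs => rw [← h2]
    exact rho_inv_apply ρ _ _

/-- The abstract part of the nilpotent step: if `Q, R, c₀` act on `U'`, and `C_Q(c)` acts trivially
on `U'` for every `c ∉ ⟨c₀⟩`, then `[Q, R]` acts trivially on `U'`. -/
theorem commute_on_part (hW : Ward A G p) {Q R : Subgroup X} (hQG : Q ≤ G) (hRG : R ≤ G)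
    (hQA : A ≤ Subgroup.normalizer (Q : Set X)) (hRA : A ≤ Subgroup.normalizer (R : Set X))
    (hRQ : R ≤ Subgroup.normalizer (Q : Set X)) (hcop : (Nat.card Q).Coprime (Nat.card R))
    {U' : Submodule k W} {c₀ : X} (hc₀ : c₀ ∈ A) (hc₀1 : c₀ ≠ 1)
    (hUQ : ∀ q ∈ Q, ∀ v ∈ U', ρ q v ∈ U') (hUR : ∀ r ∈ R, ∀ v ∈ U', ρ r v ∈ U')
    (hUc : ∀ v ∈ U', ρ c₀ v ∈ U') (hUc' : ∀ v ∈ U', ρ c₀⁻¹ v ∈ U')
    (htriv : ∀ c ∈ A, c ∉ Subgroup.zpowers c₀ → ∀ q ∈ Q ⊓ Subgroup.centralizer ({c} : Set X),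
      ∀ v ∈ U', ρ q v = v) :
    ∀ r ∈ R, ∀ q ∈ Q, ∀ v ∈ U', ρ (r⁻¹ * q * r) v = ρ q v := by
  classical
  let D : Subgroup X :=
    { carrier := {g | (∀ v ∈ U', ρ g v ∈ U') ∧ (∀ v ∈ U', ρ g⁻¹ v ∈ U') ∧
        g ∈ Subgroup.normalizer (Q : Set X) ∧ ∀ q ∈ Q, ∀ v ∈ U', ρ (g⁻¹ * q * g) v = ρ q v}
      mul_mem' := by
        rintro g h ⟨h1, h2, h3, h4⟩ ⟨h1', h2', h3', h4'⟩
        refine ⟨fun v hv => ?_, fun v hv => ?_, mul_mem h3 h3', fun q hq v hv => ?_⟩
        · rw [rho_mul_apply]; exact h1 _ (h1' v hv)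
        · rw [mul_inv_rev, rho_mul_apply]; exact h2' _ (h2 v hv)
        · have e : (g * h)⁻¹ * q * (g * h) = h⁻¹ * (g⁻¹ * q * g) * h := by group
          rw [e, h4' _ (conj_inv_mem_of_norm le_rfl h3 hq) v hv, h4 q hq v hv]
      one_mem' := ⟨fun v hv => by rwa [rho_one_apply], fun v hv => by rwa [inv_one, rho_one_apply],
        one_mem _, fun q _ v _ => by simp⟩
      inv_mem' := by
        rintro g ⟨h1, h2, h3, h4⟩
        refine ⟨h2, fun v hv => ?_, inv_mem h3, fun q hq v hv => ?_⟩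
        · rw [inv_inv]; exact h1 v hv
        · have hq' := conj_mem_of_norm le_rfl h3 hq
          have := h4 _ hq' v hv
          have e : g⁻¹ * (g * q * g⁻¹) * g = q := by group
          rw [e] at this
          rw [inv_inv]
          exact this.symm }
  have hmemD : ∀ g, g ∈ D ↔ (∀ v ∈ U', ρ g v ∈ U') ∧ (∀ v ∈ U', ρ g⁻¹ v ∈ U') ∧
      g ∈ Subgroup.normalizer (Q : Set X) ∧ ∀ q ∈ Q, ∀ v ∈ U', ρ (g⁻¹ * q * g) v = ρ q v :=
    fun g => Iff.rfl
  -- membership in `D` can be tested on centralisers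
  have hDtest : ∀ g : X, (∀ v ∈ U', ρ g v ∈ U') → (∀ v ∈ U', ρ g⁻¹ v ∈ U') →
      g ∈ Subgroup.normalizer (Q : Set X) →
      (∀ c ∈ A, c ∈ Subgroup.zpowers c₀ → c ≠ 1 → ∀ q ∈ Q ⊓ Subgroup.centralizer ({c₀} : Set X),
        ∀ v ∈ U', ρ (g⁻¹ * q * g) v = ρ q v) → g ∈ D := by
    intro g hg1 hg2 hg3 hg4
    refine ⟨hg1, hg2, hg3, ?_⟩
    have hle : Q ≤ tSub ρ Q U' hg1 hUQ hg3 := by
      refine hW.le_of_centralizer hQA (hW.coprime hQG) ?_
      intro c hc hc1 q hqq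
      have hq : q ∈ Q := hqq.1
      have hqc : q ∈ Subgroup.centralizer ({c} : Set X) := hqq.2
      refine ⟨hq, fun v hv => ?_⟩
      by_cases hcz : c ∈ Subgroup.zpowers c₀
      · have hc₀c : c₀ ∈ Subgroup.zpowers c := hW.zpowers_symm hc₀ hc₀1 hc hc1 hcz
        have hqc₀ : q ∈ Subgroup.centralizer ({c₀} : Set X) := by
          rw [Subgroup.mem_centralizer_singleton_iff]
          rw [Subgroup.mem_centralizer_singleton_iff] at hqc
          obtain ⟨i, hi⟩ := Subgroup.mem_zpowers_iff.mp hc₀c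
          rw [← hi]
          exact (Commute.zpow_right (show Commute q c from hqc) i).eq
        exact hg4 c hc hcz hc1 q ⟨hq, hqc₀⟩ v hv
      · have h1 := htriv c hc hcz q ⟨hq, hqc⟩
        rw [h1 v hv, rho_conj_apply', h1 _ (hg1 v hv), rho_inv_apply]
    intro q hq v hv
    exact (hle hq).2 v hv
  have hc₀D : c₀ ∈ D := by
    refine hDtest c₀ hUc hUc' (hQA hc₀) ?_
    intro c _ _ _ q hqq v _
    have hqc : q ∈ Subgroup.centralizer ({c₀} : Set X) := hqq.2
    rw [Subgroup.mem_centralizer_singleton_iff] at hqc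
    have e : c₀⁻¹ * q * c₀ = q := by
      rw [mul_assoc, hqc, ← mul_assoc, inv_mul_cancel, one_mul]
    rw [e]
  have hCR : R ⊓ Subgroup.centralizer ({c₀} : Set X) ≤ D := by
    intro r hrr
    have hr : r ∈ R := hrr.1
    have hrc : r ∈ Subgroup.centralizer ({c₀} : Set X) := hrr.2
    refine hDtest r (hUR r hr) (hUR _ (R.inv_mem hr)) (hRQ hr) ?_
    intro c _ _ _ q hqq v _
    have hq : q ∈ Q := hqq.1
    have hqc : q ∈ Subgroup.centralizer ({c₀} : Set X) := hqq.2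
    have hcom : r * q = q * r := by
      refine hW.commute_of_coprime hc₀ hc₀1 ⟨hRG hr, hrc⟩ ⟨hQG hq, hqc⟩ ?_
      exact Nat.Coprime.coprime_dvd_left (Subgroup.orderOf_dvd_natCard R hr)
        (Nat.Coprime.coprime_dvd_right (Subgroup.orderOf_dvd_natCard Q hq) hcop.symm)
    have e : r⁻¹ * q * r = q := by
      rw [mul_assoc, ← hcom, ← mul_assoc, inv_mul_cancel, one_mul]
    rw [e]
  have hDconj : ∀ g ∈ D, ∀ r ∈ R, r⁻¹ * g * r ∈ D := by
    rintro g ⟨h1, h2, h3, h4⟩ r hr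
    refine ⟨fun v hv => ?_, fun v hv => ?_, ?_, fun q hq v hv => ?_⟩
    · rw [rho_conj_apply']
      exact hUR _ (R.inv_mem hr) _ (h1 _ (hUR r hr v hv))
    · have e : (r⁻¹ * g * r)⁻¹ = r⁻¹ * g⁻¹ * r := by group
      rw [e, rho_conj_apply']
      exact hUR _ (R.inv_mem hr) _ (h2 _ (hUR r hr v hv))
    · exact mul_mem (mul_mem (inv_mem (hRQ hr)) h3) (hRQ hr)
    · have hq' : r * q * r⁻¹ ∈ Q := conj_mem_of_norm hRQ hr hq
      have e : (r⁻¹ * g * r)⁻¹ * q * (r⁻¹ * g * r) = r⁻¹ * (g⁻¹ * (r * q * r⁻¹) * g) * r := by group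
      rw [e, rho_conj_apply', h4 _ hq' _ (hUR r hr v hv), ← rho_conj_apply']
      congr 2
      group
  have hzD : Subgroup.zpowers c₀ ≤ D := Subgroup.zpowers_le.mpr hc₀D
  have hzA : Subgroup.zpowers c₀ ≤ A := Subgroup.zpowers_le.mpr hc₀
  have hRD : R ≤ D := by
    intro r hr
    have hNnorm : Subgroup.zpowers c₀ ≤ Subgroup.normalizer ((R ⊓ D : Subgroup X) : Set X) := by
      refine norm_inf (hzA.trans hRA) ?_
      intro a₀ ha₀
      exact Subgroup.le_normalizer (hzD ha₀)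
    have hcopz : (Nat.card (Subgroup.zpowers c₀)).Coprime (Nat.card R) := by
      rw [Nat.card_zpowers, hW.orderOf_eq hc₀ hc₀1]
      refine (Nat.Prime.coprime_iff_not_dvd hW.prime).mpr ?_
      intro h
      exact hW.cop (h.trans (Subgroup.card_dvd_of_le hRG))
    haveI := hW.solv
    have hRs : Group.IsSolvable R :=
      Group.isSolvable_of_isSolvable_injective (f := Subgroup.inclusion hRG)
        (Subgroup.inclusion_injective hRG)
    obtain ⟨c', hc', hc'2⟩ := Coprime.Coset.exists_centralizer_mem_coset (hzA.trans hRA) hcopz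
      (Or.inr hRs) (N := R ⊓ D) inf_le_left hNnorm r hr (by
        intro a₀ ha₀
        have h1 : a₀ * r * a₀⁻¹ ∈ R := conj_mem_of_norm hRA (hzA ha₀) hr
        refine ⟨R.mul_mem (R.inv_mem hr) h1, ?_⟩
        have e : r⁻¹ * (a₀ * r * a₀⁻¹) = (r⁻¹ * a₀ * r) * a₀⁻¹ := by group
        rw [e]
        exact D.mul_mem (hDconj a₀ (hzD ha₀) r hr) (D.inv_mem (hzD ha₀)))
    have hc'D : c' ∈ D := by
      refine hCR ⟨hc'.1, ?_⟩
      have := Subgroup.mem_centralizer_iff.mp hc'.2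
      show c' ∈ Subgroup.centralizer ({c₀} : Set X)
      rw [Subgroup.mem_centralizer_singleton_iff]
      exact (this c₀ (Subgroup.mem_zpowers c₀)).symm
    have h5 := D.mul_mem hc'2.2 (D.inv_mem hc'D)
    have h6 : r⁻¹ * c' * c'⁻¹ = r⁻¹ := by group
    rw [h6] at h5
    simpa using D.inv_mem h5
  intro r hr q hq v hv
  exact (hRD hr).2.2.2 q hq v hv

/-- **The nilpotent step.** If `Q` is a nilpotent `A`-invariant subgroup of `G` with `|Q|`
invertible in `k`, and `R` is an `A`-invariant subgroup of `G` normalising `Q`, of order prime to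
`|Q|`, then `[Q, R]` acts trivially on each `⟨Q, R, A⟩`-submodule. -/
theorem nilpotent_step (hW : Ward A G p) (hA0 : ∀ w : W, (∀ a ∈ A, ρ a w = w) → w = 0)
    {Q R : Subgroup X} (hQG : Q ≤ G) (hRG : R ≤ G) (hQA : A ≤ Subgroup.normalizer (Q : Set X))
    (hRA : A ≤ Subgroup.normalizer (R : Set X)) (hRQ : R ≤ Subgroup.normalizer (Q : Set X))
    (hQn : Group.IsNilpotent Q) (hcop : (Nat.card Q).Coprime (Nat.card R))
    (hQk : (Nat.card Q : k) ≠ 0) :
    ∀ (n : ℕ) (U : Submodule k W), Module.finrank k U = n →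
      (∀ q ∈ Q, ∀ w ∈ U, ρ q w ∈ U) → (∀ a ∈ A, ∀ w ∈ U, ρ a w ∈ U) →
      (∀ r ∈ R, ∀ w ∈ U, ρ r w ∈ U) →
      ∀ r ∈ R, ∀ q ∈ Q, ∀ w ∈ U, ρ (r⁻¹ * q * r) w = ρ q w := by
  classical
  intro n
  induction n using Nat.strong_induction_on with
  | _ n ih =>
    intro U hn hUQ hUA hUR r hr q hq
    by_cases htriv : ∀ y ∈ Q, ∀ w ∈ U, ρ y w = w
    · intro w hw
      rw [htriv _ (conj_inv_mem_of_norm hRQ hr hq) w hw, htriv q hq w hw]
    obtain ⟨m, hm1, hm2⟩ := exists_last_lcs hQn ρ U htriv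
    set Y : Subgroup X := Q.lowerCentralSeries m with hY
    have hYQ : Y ≤ Q := Subgroup.lowerCentralSeries_le_self Q m
    have hYG : Y ≤ G := hYQ.trans hQG
    have hYA : A ≤ Subgroup.normalizer (Y : Set X) := lcs_norm hQA m
    have hRY : R ≤ Subgroup.normalizer (Y : Set X) := lcs_norm hRQ m
    have hYk : (Nat.card Y : k) ≠ 0 := card_ne_zero_of_le hYQ hQk
    have hcopY : (Nat.card Y).Coprime (Nat.card R) :=
      Nat.Coprime.coprime_dvd_left (Subgroup.card_dvd_of_le hYQ) hcop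
    have hUY : ∀ y ∈ Y, ∀ w ∈ U, ρ y w ∈ U := fun y hy => hUQ y (hYQ hy)
    have hcommQ : ∀ y ∈ Y, ∀ z ∈ Q, ∀ w ∈ U, ρ y (ρ z w) = ρ z (ρ y w) :=
      fun y hy z hz w hw => comm_of_lcs hUQ hm2 hy hz hw
    have hcommY : ∀ y ∈ Y, ∀ z ∈ Y, ∀ w ∈ U, ρ y (ρ z w) = ρ z (ρ y w) :=
      fun y hy z hz w hw => hcommQ y hy z (hYQ hz) w hw
    have hRfix := hW.abelian_step hA0 hYG hRG hYA hRA hRY hcopY hYk hUY hUA hUR hcommY
    have hle : U ≤ LinearMap.ker (ρ (r⁻¹ * q * r) - ρ q) := by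
      refine le_of_forall_wt hYk hUY hcommY ?_
      intro w hwU lam hlam
      rw [LinearMap.mem_ker, LinearMap.sub_apply, sub_eq_zero]
      by_cases hw0 : w = 0
      · rw [hw0, map_zero, map_zero]
      set U' : Submodule k W := U ⊓ wtSpace ρ Y lam with hU'
      have hwU' : w ∈ U' := ⟨hwU, hlam⟩
      have hU'Q : ∀ q ∈ Q, ∀ v ∈ U', ρ q v ∈ U' := by
        rintro q' hq' v ⟨hv1, hv2⟩
        refine ⟨hUQ q' hq' v hv1, fun y hy => ?_⟩
        rw [hcommQ y hy q' hq' v hv1, hv2 y hy, map_smul]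
      have hU'R : ∀ r ∈ R, ∀ v ∈ U', ρ r v ∈ U' := by
        rintro r' hr' v ⟨hv1, hv2⟩
        refine ⟨hUR r' hr' v hv1, fun y hy => ?_⟩
        have e : y * r' = r' * (r'⁻¹ * y * r') := by group
        rw [← rho_mul_apply, e, rho_mul_apply, hRfix r' hr' y hy v hv1, hv2 y hy, map_smul]
      by_cases hl1 : ∀ y ∈ Y, lam y = 1
      · -- the fixed points of `Y`: induction
        have hU'A : ∀ a ∈ A, ∀ v ∈ U', ρ a v ∈ U' := by
          rintro a ha v ⟨hv1, hv2⟩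
          refine ⟨hUA a ha v hv1, fun y hy => ?_⟩
          have e : y * a = a * (a⁻¹ * y * a) := by group
          have hy' := conj_inv_mem_of_norm hYA ha hy
          rw [← rho_mul_apply, e, rho_mul_apply, hv2 _ hy', hl1 _ hy', hl1 y hy, one_smul, one_smul]
        have hlt : U' < U := by
          refine lt_of_le_of_ne inf_le_left ?_
          intro heq
          apply hm1
          intro y hy v hv
          have hv' : v ∈ U' := heq ▸ hv
          rw [hv'.2 y hy, hl1 y hy, one_smul]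
        have hfr : Module.finrank k U' < n := by
          rw [← hn]
          exact Submodule.finrank_lt_finrank_of_lt hlt
        exact ih _ hfr U' rfl hU'Q hU'A hU'R r hr q hq w hwU'
      · -- a nontrivial weight
        push Not at hl1
        obtain ⟨y₀, hy₀, hy₀1⟩ := hl1
        obtain ⟨c₀, hc₀, hc₀1, hc₀S⟩ := hW.exists_stab hA0 hYA hw0 hlam
        have hneA : ¬ A ≤ wtStab Y lam := hW.not_le_stab hYG hYA hw0 hlam ⟨y₀, hy₀, hy₀1⟩
        have hstable : ∀ g ∈ A, g ∈ wtStab Y lam → ∀ v ∈ U', ρ g v ∈ U' := by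
          rintro g hg hgS v ⟨hv1, hv2⟩
          refine ⟨hUA g hg v hv1, fun y hy => ?_⟩
          have e : y * g = g * (g⁻¹ * y * g) := by group
          have hy' := conj_inv_mem_of_norm hYA hg hy
          rw [← rho_mul_apply, e, rho_mul_apply, hv2 _ hy', hgS.2 y hy, map_smul]
        have htr : ∀ c ∈ A, c ∉ Subgroup.zpowers c₀ → ∀ q ∈ Q ⊓ Subgroup.centralizer ({c} : Set X),
            ∀ v ∈ U', ρ q v = v := by
          intro c hc hcz q' hq' v hv
          have hcS : c ∉ wtStab Y lam := fun h =>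
            hneA (hW.le_of_mem_of_mem hc₀ hc₀1 hc hcz hc₀S h)
          exact hW.fix_of_not_stab hA0 hYA hc hcS (B := Q ⊓ Subgroup.centralizer ({c} : Set X))
            (inf_le_left.trans hQG) inf_le_right (norm_inf hQA (hW.centralizer_norm hc))
            (card_ne_zero_of_le inf_le_left hQk) hq' hv.2 (hU'Q q' hq'.1 v hv).2
        exact hW.commute_on_part hQG hRG hQA hRA hRQ hcop hc₀ hc₀1 hU'Q hU'R
          (hstable c₀ hc₀ hc₀S) (hstable _ (A.inv_mem hc₀) (inv_mem hc₀S)) htr r hr q hq w hwU'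
    intro w hw
    have := hle hw
    rwa [LinearMap.mem_ker, LinearMap.sub_apply, sub_eq_zero] at this

end Ward

end

end Cfsg.Agent.Lib.Ward
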